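import Cfsg.Agent.FusionAlperin.ConstrainedComponent
import Cfsg.Agent.FusionSys.LocalSystems
import Cfsg.Agent.LocalEven.CoprimeLemmas
import Mathlib.GroupTheory.SemidirectProduct

/-!
Local systems inside a constrained centralizer system are constrained.
-/

set_option autoImplicit false

open Cfsg Cfsg.FusionSystem
open Cfsg.Agent.FusionSys

namespace Cfsg.Agent.FusionAlperin

universe u

variable {Ω : Type u} [Group Ω] {S : Subgroup Ω} {p : ℕ}

theorem forall_mem_sup {A B K : Subgroup Ω} (χ : ↥(A ⊔ B) →* Ω)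
    (hA : ∀ x : A, χ (Subgroup.inclusion le_sup_left x) ∈ K)
    (hB : ∀ x : B, χ (Subgroup.inclusion le_sup_right x) ∈ K) (y : ↥(A ⊔ B)) : χ y ∈ K := by
  have key : A ⊔ B ≤ (K.comap χ).map (A ⊔ B).subtype := by
    refine sup_le (fun a ha => ⟨⟨a, Subgroup.mem_sup_left ha⟩, hA ⟨a, ha⟩, rfl⟩)
      fun a ha => ⟨⟨a, Subgroup.mem_sup_right ha⟩, hB ⟨a, ha⟩, rfl⟩
  obtain ⟨z, hz, hzy⟩ := key y.2
  obtain rfl : z = y := Subtype.ext hzy
  exact hz

/-- Thompson's lemma for an automorphism of a `p`-group. -/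
theorem aut_fix_of_fix_centralizer [Fact p.Prime] {W U Q : Subgroup Ω} [Finite W]
    (hW : IsPGroup p W) (hU : U ≤ W) (hUQ : U ≤ Subgroup.normalizer (Q : Set Ω))
    (β : MulAut W) (hβ : Nat.Coprime (orderOf β) p) (hβU : ∀ u : W, (u : Ω) ∈ U → β u = u)
    (hβQ : ∀ q : W, (q : Ω) ∈ Q → (β q : Ω) ∈ Q)
    (hfix : ∀ q : W, (q : Ω) ∈ Q → (q : Ω) ∈ Subgroup.centralizer (U : Set Ω) → β q = q) :
    ∀ q : W, (q : Ω) ∈ Q → β q = q := by
  have : Finite (MulAut W) := Finite.of_injective (fun e : MulAut W => (e : W → W))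
    DFunLike.coe_injective
  let G := W ⋊[MonoidHom.id (MulAut W)] MulAut W
  have : Finite G := Finite.of_equiv _ SemidirectProduct.equivProd.symm
  let i : W →* G := SemidirectProduct.inl
  let j : MulAut W →* G := SemidirectProduct.inr
  have hi : Function.Injective i := SemidirectProduct.inl_injective
  have hconj : ∀ (b : MulAut W) (w : W), i (b w) = j b * i w * (j b)⁻¹ := fun b w => by
    rw [← map_inv]
    exact SemidirectProduct.inl_aut b w
  set P := (Q.subgroupOf W).map i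
  set A := (U.subgroupOf W).map i
  have himg : (Q.subgroupOf W).map β.toMonoidHom = Q.subgroupOf W :=
    Subgroup.eq_of_le_of_card_ge (by rintro _ ⟨x, hx, rfl⟩; exact hβQ x hx)
      (Nat.card_congr ((Q.subgroupOf W).equivMapOfInjective _ β.injective).toEquiv).le
  have hxP : j β ∈ Subgroup.normalizer (P : Set G) := by
    rw [Subgroup.mem_normalizer_iff]
    intro y
    constructor
    · rintro ⟨w, hw, rfl⟩
      exact ⟨β w, hβQ w hw, hconj β w⟩
    · rintro ⟨w, hw, he⟩
      obtain ⟨w', hw', rfl⟩ := himg.ge hw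
      refine ⟨w', hw', ?_⟩
      have := (hconj β w').symm.trans he
      simpa using this
  have hAP : A ≤ Subgroup.normalizer (P : Set G) := by
    refine (Subgroup.map_mono fun u hu => ?_).trans (Subgroup.le_normalizer_map i)
    rw [Subgroup.mem_normalizer_iff]
    intro w
    exact Subgroup.mem_normalizer_iff.1 (hUQ hu) w
  have hord : ¬ p ∣ orderOf (j β) := by
    rw [orderOf_injective j SemidirectProduct.inr_injective]
    exact ((Fact.out : p.Prime).coprime_iff_not_dvd).1 hβ.symm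
  have hxA : ∀ a ∈ A, Commute (j β) a := by
    rintro _ ⟨u, hu, rfl⟩
    have := hconj β u
    rw [hβU u hu, eq_mul_inv_iff_mul_eq] at this
    exact this.symm
  have hkey := LocalEven.aXb_lemma (G := G) (P := P) (A := A)
    (((hW.to_subgroup _).map i)) ((hW.to_subgroup _).map i) hAP hxP hord hxA ?_
  · intro q hq
    have h := (hkey (i q) ⟨q, hq, rfl⟩).eq
    apply hi
    rw [hconj β q, h, mul_inv_cancel_right]
  rintro _ ⟨w, hw, rfl⟩ hcom
  have hw' : (w : Ω) ∈ Subgroup.centralizer (U : Set Ω) :=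
    Subgroup.mem_centralizer_iff.2 fun u hu => by
      have h := (hcom (i ⟨u, hU hu⟩) ⟨⟨u, hU hu⟩, hu, rfl⟩).eq
      rw [← map_mul, ← map_mul] at h
      exact congrArg Subtype.val (hi h)
  have := hconj β w
  rw [hfix w hw hw', eq_mul_inv_iff_mul_eq] at this
  exact this.symm

variable [Finite S] [Fact p.Prime]

/-- A saturated system with all automorphism groups `p`-groups is constrained. -/
theorem constrained_of_pGroups (hS : IsPGroup p S) {F : FusionSystem S} (hF : F.IsSaturated p)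
    (h : ∀ P : Subgroup Ω, P ≤ S → IsPGroup p (F.autGroup P)) : F.IsConstrained p := by
  refine ⟨hF, S, ?_, Cfsg.Agent.FusionBatch.isCentric_self hS hF⟩
  rw [Cfsg.Agent.S5083.result p hS F hF h]
  refine ⟨le_rfl, fun P φ hφ => ?_⟩
  obtain ⟨hP, g, hg, h⟩ := hφ
  have hmem := (Cfsg.innerFusionSystem S).conj_mem (sup_le hP le_rfl : P ⊔ S ≤ S) hg
  refine ⟨_, hmem, fun x => (h x).symm, ?_⟩
  ext y
  rw [mem_map_subgroupOf]
  constructor
  · rintro ⟨x, hx, rfl⟩
    exact S.mul_mem (S.mul_mem hg hx) (S.inv_mem hg)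
  · intro hy
    refine ⟨⟨g⁻¹ * y * g, Subgroup.mem_sup_right ?_⟩, ?_, ?_⟩
    · exact S.mul_mem (S.mul_mem (S.inv_mem hg) hy) hg
    · exact S.mul_mem (S.mul_mem (S.inv_mem hg) hy) hg
    · show g * (g⁻¹ * y * g) * g⁻¹ = y
      group

/-- If the centralizer system of a normal subgroup is constrained, so is the system. -/
theorem constrained_of_centSys (hS : IsPGroup p S) {N : FusionSystem S} (hN : N.IsSaturated p)
    {R : Subgroup Ω} (hR : N.IsNormal R) (hC : (centSys N R hR.1).IsConstrained p) :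
    N.IsConstrained p := by
  have hCn := centSys_normal hS hN hR
  obtain ⟨-, R', hn, hc⟩ := hC
  have hQn := isNormal_core N
  have hR'Q : R' ≤ N.core :=
    (le_sSup (s := {Q | (centSys N R hR.1).IsNormal Q}) hn).trans (core_le_core hS hCn.1)
  have hRQ : R ≤ N.core := le_sSup (s := {Q | N.IsNormal Q}) hR
  refine ⟨hN, N.core, hQn, hQn.1, ?_⟩
  rintro _ ⟨φ, hφ, rfl⟩
  have : Finite N.core := finite_of_le ‹_› hQn.1
  rw [range_eq_of_image_le (Q := N.core) (N.injective_of_mem hφ) (by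
    rintro _ ⟨x, rfl⟩
    exact sc_map_mem (isNormal_stronglyClosed hQn) hφ x.2) le_rfl]
  exact fun x hx => hR'Q (hc.2 R' (isConj_refl _ hn.1)
    ⟨⟨hx.1, Subgroup.centralizer_le (SetLike.coe_subset_coe.2 hRQ) hx.2⟩,
      Subgroup.centralizer_le (SetLike.coe_subset_coe.2 hR'Q) hx.2⟩)

/-- A coprime power of an automorphism with a prescribed restriction. -/
theorem exists_coprime_restr {W P : Subgroup Ω} [Finite W] (hPW : P ≤ W) {β : MulAut W}
    {b : MulAut P} (h : ∀ x : P, (β (Subgroup.inclusion hPW x) : Ω) = b x)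
    (hb : Nat.Coprime (orderOf b) p) :
    ∃ k : ℕ, Nat.Coprime (orderOf (β ^ k)) p ∧
      ∀ x : P, ((β ^ k) (Subgroup.inclusion hPW x) : Ω) = b x := by
  have : Finite (MulAut W) := Finite.of_injective (fun e : MulAut W => (e : W → W))
    DFunLike.coe_injective
  obtain ⟨j, m, hm, ho⟩ := Nat.exists_eq_pow_mul_and_not_dvd (orderOf_pos β).ne' p
    (Fact.out : p.Prime).ne_one
  obtain ⟨t, ht⟩ := exists_pow_eq_self_of_coprime (hb.pow_right j).symm
  refine ⟨p ^ j * t, Nat.Coprime.coprime_dvd_left (orderOf_dvd_of_pow_eq_one (n := m) ?_)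
    (((Fact.out : p.Prime).coprime_iff_not_dvd).2 hm).symm, fun x => ?_⟩
  · rw [← pow_mul, mul_right_comm, pow_mul, ← ho, pow_orderOf_eq_one, one_pow]
  · have hp : ∀ n : ℕ, ((β ^ n) (Subgroup.inclusion hPW x) : Ω) = (b ^ n) x := by
      intro n
      induction n with
      | zero => rfl
      | succ n ih =>
        rw [pow_succ', pow_succ', MulAut.mul_apply, MulAut.mul_apply, ← h]
        exact congrArg (fun w : W => (β w : Ω)) (Subtype.ext ih)
    rw [hp, pow_mul, ht]

section Local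

variable {F : FusionSystem S} {X U Q : Subgroup Ω} {C : FusionSystem (centralizerIn S X)}
  {E : FusionSystem (normalizerIn S U)}

omit [Fact p.Prime] in
/-- A map of `N_F(U)` fixing `U` pointwise extends to one carrying `Q` onto itself. -/
theorem exists_ext_cent (hXU : X ≤ U) (hNC : normalizerIn S U ≤ centralizerIn S X)
    (hC : F.IsCentralizerSystem X C) (hQ : C.IsNormal Q) (hE : F.IsNormalizerSystem U E)
    {W : Subgroup Ω} (hUW : U ≤ W) {ψ : W →* Ω} (hψ : ψ ∈ E.Hom W)
    (hfix : ∀ u : W, (u : Ω) ∈ U → ψ u = u) :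
    ∃ ξ ∈ F.Hom (W ⊔ Q), (∀ x : W, ξ (Subgroup.inclusion le_sup_left x) = ψ x) ∧
      (Q.subgroupOf (W ⊔ Q)).map ξ = Q := by
  have hψF := FusionAux.normalizerSystem_hom hE hψ
  have hψC : ψ ∈ C.Hom W := by
    rw [hC W]
    refine ⟨hψF, (le_S E hψ).trans hNC, fun x => hNC (map_mem_S E hψ x),
      restr (sup_le le_rfl (hXU.trans hUW)) ψ, restr_mem F _ hψF, fun _ => rfl,
      fun x => hfix _ (hXU x.2)⟩
  obtain ⟨ξ, hξ, h1, h2⟩ := hQ.2 W ψ hψC
  rw [hC _] at hξ
  exact ⟨ξ, hξ.1, h1, h2⟩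

/-- Inside a constrained centralizer system the normalizer systems are constrained. -/
theorem constrained_normalizer_of_centralizer (hS : IsPGroup p S) (hF : F.IsSaturated p)
    (hU : F.IsFullyNormalized U) (hXU : X ≤ U)
    (hNC : normalizerIn S U ≤ centralizerIn S X)
    (hC : F.IsCentralizerSystem X C) (hc : C.IsConstrained p)
    (hE : F.IsNormalizerSystem U E) : E.IsConstrained p := by
  obtain ⟨-, Q, hQn, hQc⟩ := hc
  have hUS : U ≤ S := hU.1
  have hNS : normalizerIn S U ≤ S := normalizerIn_le U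
  have hUN : U ≤ normalizerIn S U := le_normalizerIn hUS
  have hUn := normalizerSystem_isNormal hUS hE
  have : Finite (normalizerIn S U) := finite_of_le ‹_› hNS
  have hEs := normalizerSystem_saturated hS hF hU hE
  have hpN := hS.to_le hNS
  refine constrained_of_centSys hpN hEs hUn ?_
  have hTN : centralizerIn (normalizerIn S U) U ≤ normalizerIn S U := centralizerIn_le U
  have : Finite (centralizerIn (normalizerIn S U) U) := finite_of_le ‹_› hTN
  have hpT := hpN.to_le hTN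
  have hEcs : (centSys E U hUn.1).IsSaturated p :=
    centralizerSystem_saturated hpN hEs (fullyCentralized_of_normal hUn) (centSys_spec _ _ _)
  have hQX : Q ≤ centralizerIn S X := hQn.1
  have hQS : Q ≤ S := hQX.trans (centralizerIn_le X)
  have hUQ : U ≤ Subgroup.normalizer (Q : Set Ω) :=
    (hUN.trans hNC).trans (isNormal_le_normalizer hQn)
  set R := Q ⊓ Subgroup.centralizer (U : Set Ω)
  have hRT : R ≤ centralizerIn (normalizerIn S U) U := fun r hr =>
    ⟨⟨hQS hr.1, Subgroup.centralizer_le_normalizer _ hr.2⟩, hr.2⟩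
  have hRn : (centSys E U hUn.1).IsNormal R := by
    refine ⟨hRT, fun P φ hφ => ?_⟩
    obtain ⟨-, hP, hφT, φ', hφ', h1, h2⟩ := hφ
    obtain ⟨ξ, hξ, hξe, hξQ⟩ := exists_ext_cent hXU hNC hC hQn hE le_sup_right hφ'
      fun u hu => (congrArg φ' (Subtype.ext rfl)).trans (h2 ⟨u, hu⟩)
    have hV : (P ⊔ R) ⊔ U ≤ (P ⊔ U) ⊔ Q :=
      sup_le (sup_le (le_sup_left.trans le_sup_left) (inf_le_left.trans le_sup_right))
        (le_sup_right.trans le_sup_left)
    set ω := restr hV ξ
    have hωP : ∀ x : P, ω ⟨x, Subgroup.mem_sup_left (Subgroup.mem_sup_left x.2)⟩ = φ x :=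
      fun x => (hξe ⟨x, Subgroup.mem_sup_left x.2⟩).trans (h1 x)
    have hωU : ∀ x : U, ω ⟨x, Subgroup.mem_sup_right x.2⟩ = x :=
      fun x => (hξe ⟨x, Subgroup.mem_sup_right x.2⟩).trans (h2 x)
    have hωR : ∀ (x : ↥((P ⊔ R) ⊔ U)), (x : Ω) ∈ R → ω x ∈ R := by
      intro x hx
      refine ⟨FusionAux.apply_mem_of_map_eq hξQ (show ((Subgroup.inclusion hV x) : Ω) ∈ Q from hx.1),
        Subgroup.mem_centralizer_iff.2 fun u hu => ?_⟩
      let u' : ↥((P ⊔ R) ⊔ U) := ⟨u, Subgroup.mem_sup_right hu⟩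
      have h : ω (u' * x) = ω (x * u') :=
        congrArg ω (Subtype.ext (Subgroup.mem_centralizer_iff.1 hx.2 u hu))
      rwa [map_mul, map_mul, show ω u' = u from hωU ⟨u, hu⟩] at h
    have hωN : ∀ y, ω y ∈ normalizerIn S U := by
      refine forall_mem_sup ω (fun x => ?_) fun x => (hωU x).symm ▸ hUN x.2
      refine forall_mem_sup (restr le_sup_left ω) (fun x => ?_) (fun x => ?_) x
      · exact (hωP x).symm ▸ hTN (hφT x)
      · exact hTN (hRT (hωR _ x.2))
    have hω : ω ∈ E.Hom _ := mem_normalizerSystem hUS hE le_sup_right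
      (sup_le (sup_le (hP.trans hTN) (hRT.trans hTN)) hUN) (restr_mem F hV hξ) hωN
      fun x hx => by
        show ω x ∈ U
        rw [show ω x = x from hωU ⟨x, hx⟩]
        exact hx
    have hωT : ∀ x, restr le_sup_left ω x ∈ centralizerIn (normalizerIn S U) U :=
      forall_mem_sup (restr (le_sup_left : P ⊔ R ≤ (P ⊔ R) ⊔ U) ω)
        (fun x => (hωP x).symm ▸ hφT x) fun x => hRT (hωR _ x.2)
    refine ⟨restr le_sup_left ω, ⟨restr_mem E le_sup_left hω, sup_le hP hRT, hωT, ω, hω,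
      fun _ => rfl, hωU⟩, fun x => hωP x, ?_⟩
    have : Finite R := finite_of_le ‹_› hRT
    exact map_subgroupOf_eq_of_mem le_sup_right
      (E.injective_of_mem (restr_mem E le_sup_left hω)) fun x hx => hωR _ hx
  refine constrained_of_centSys hpT hEcs hRn ?_
  set T' := centralizerIn (centralizerIn (normalizerIn S U) U) R
  have hT'T : T' ≤ centralizerIn (normalizerIn S U) U := centralizerIn_le R
  have : Finite T' := finite_of_le ‹_› hT'T
  have hDs : (centSys (centSys E U hUn.1) R hRn.1).IsSaturated p :=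
    centralizerSystem_saturated hpT hEcs (fullyCentralized_of_normal hRn) (centSys_spec _ _ _)
  refine constrained_of_pGroups (hpT.to_le hT'T) hDs fun P hP a => ?_
  have hPS : P ≤ S := ((hP.trans hT'T).trans hTN).trans hNS
  have : Finite P := finite_of_le ‹_› hPS
  obtain ⟨k, m, hm, ho⟩ := Nat.exists_eq_pow_mul_and_not_dvd (orderOf_pos a).ne' p
    (Fact.out : p.Prime).ne_one
  set b := a ^ p ^ k
  have hbo : Nat.Coprime (orderOf (b : MulAut P)) p := by
    rw [Subgroup.orderOf_coe]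
    refine Nat.Coprime.coprime_dvd_left (orderOf_dvd_of_pow_eq_one (n := m) ?_)
      (((Fact.out : p.Prime).coprime_iff_not_dvd).2 hm).symm
    rw [← pow_mul, ← ho, pow_orderOf_eq_one]
  refine ⟨k, Subtype.ext (MulEquiv.ext fun x => ?_)⟩
  obtain ⟨-, -, -, ψ₁, hψ₁, hb1, hbR⟩ := autGroup_mem_hom _ hP b.2
  obtain ⟨-, -, -, ψ₂, hψ₂, h1, h2⟩ := hψ₁
  obtain ⟨ξ, hξ, hξe, hξQ⟩ := exists_ext_cent (W := (P ⊔ R) ⊔ U) hXU hNC hC hQn hE le_sup_right hψ₂
    fun u hu => (congrArg ψ₂ (Subtype.ext rfl)).trans (h2 ⟨u, hu⟩)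
  let W := ((P ⊔ R) ⊔ U) ⊔ Q
  have hWS : W ≤ S := le_S F hξ
  have : Finite W := finite_of_le ‹_› hWS
  have hPW : P ≤ W := (le_sup_left.trans le_sup_left).trans le_sup_left
  have hξP : ∀ x : P, ξ (Subgroup.inclusion hPW x) = ((b : MulAut P) x : Ω) := fun x =>
    ((hξe ⟨x, _⟩).trans (h1 (Subgroup.inclusion le_sup_left x))).trans (hb1 x)
  have hξR : ∀ (x : W), (x : Ω) ∈ R → ξ x = x := fun x hx =>
    ((hξe ⟨x, Subgroup.mem_sup_left (Subgroup.mem_sup_right hx)⟩).trans
      (h1 ⟨x, Subgroup.mem_sup_right hx⟩)).trans (hbR ⟨x, hx⟩)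
  have hξU : ∀ (x : W), (x : Ω) ∈ U → ξ x = x := fun x hx =>
    (hξe ⟨x, Subgroup.mem_sup_right hx⟩).trans (h2 ⟨x, hx⟩)
  have hr : ξ.range = W := range_eq_of_image_le (F.injective_of_mem hξ) (by
    rintro _ ⟨y, rfl⟩
    refine forall_mem_sup ξ (forall_mem_sup (restr le_sup_left ξ)
      (forall_mem_sup (restr le_sup_left (restr le_sup_left ξ)) (fun z => ?_) fun z => ?_)
        fun z => ?_) (fun z => ?_) y
    · exact (hξP z).symm ▸ hPW (Subtype.mem _)
    · exact Set.mem_of_eq_of_mem (s := (W : Set Ω))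
        (hξR ⟨(z : Ω), Subgroup.mem_sup_left (Subgroup.mem_sup_left (Subgroup.mem_sup_right z.2))⟩
          z.2) (Subgroup.mem_sup_left (Subgroup.mem_sup_left (Subgroup.mem_sup_right z.2)))
    · exact Set.mem_of_eq_of_mem (s := (W : Set Ω))
        (hξU ⟨(z : Ω), Subgroup.mem_sup_left (Subgroup.mem_sup_right z.2)⟩ z.2)
        (Subgroup.mem_sup_left (Subgroup.mem_sup_right z.2))
    · exact Subgroup.mem_sup_right (FusionAux.apply_mem_of_map_eq hξQ z.2)) le_rfl
  obtain ⟨e, he, hex⟩ := exists_coprime_restr (p := p) hPW (β := toIso F hξ hr) hξP hbo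
  set β := toIso F hξ hr ^ e
  have hfixpow : ∀ (n : ℕ) (w : W), ξ w = w → (toIso F hξ hr ^ n) w = w := by
    intro n w hw
    induction n with
    | zero => rfl
    | succ n ih => rw [pow_succ', MulAut.mul_apply, ih]; exact Subtype.ext hw
  have hβQ : ∀ q : W, (q : Ω) ∈ Q → (β q : Ω) ∈ Q := by
    intro q hq
    have h : ∀ n : ℕ, ((toIso F hξ hr ^ n) q : Ω) ∈ Q := fun n => by
      induction n with
      | zero => exact hq
      | succ n ih => rw [pow_succ', MulAut.mul_apply]; exact FusionAux.apply_mem_of_map_eq hξQ ih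
    exact h e
  have hQfix := aut_fix_of_fix_centralizer (hS.to_le hWS) (U := U) (Q := Q)
    (le_sup_right.trans le_sup_left) hUQ β he (fun u hu => hfixpow e u (hξU u hu)) hβQ
    fun q hq hqc => hfixpow e q (hξR q ⟨hq, hqc⟩)
  set c := x⁻¹ * (b : MulAut P) x
  have hcC : ∀ y : P, (y : Ω) ∈ centralizerIn S X := fun y => hNC (hTN (hT'T (hP y.2)))
  have hPQ : P ≤ Subgroup.normalizer (Q : Set Ω) := fun y hy =>
    isNormal_le_normalizer hQn (hcC ⟨y, hy⟩)
  have hcQ : (c : Ω) ∈ Q := by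
    refine hQc.2 Q (isConj_refl _ hQX) ⟨hcC c, Subgroup.mem_centralizer_iff.2 fun q hq => ?_⟩
    have hq' : (x : Ω) * q * (x : Ω)⁻¹ ∈ Q := (Subgroup.mem_normalizer_iff.1 (hPQ x.2) q).1 hq
    set x' := Subgroup.inclusion hPW x
    set q' : W := ⟨q, Subgroup.mem_sup_right hq⟩
    have h := hQfix (x' * q' * x'⁻¹) hq'
    rw [map_mul, map_mul, map_inv, hQfix q' hq] at h
    have h' := congrArg Subtype.val h
    simp only [Subgroup.coe_mul, Subgroup.coe_inv] at h'
    rw [hex x] at h'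
    have h'' : ((b : MulAut P) x : Ω) * q * ((b : MulAut P) x : Ω)⁻¹ = x * q * (x : Ω)⁻¹ := h'
    show q * ((x : Ω)⁻¹ * ((b : MulAut P) x : Ω)) = (x : Ω)⁻¹ * ((b : MulAut P) x : Ω) * q
    calc q * ((x : Ω)⁻¹ * ((b : MulAut P) x : Ω))
        = (x : Ω)⁻¹ * ((x : Ω) * q * (x : Ω)⁻¹) * ((b : MulAut P) x : Ω) := by group
      _ = (x : Ω)⁻¹ * (((b : MulAut P) x : Ω) * q * ((b : MulAut P) x : Ω)⁻¹) *
            ((b : MulAut P) x : Ω) := by rw [h'']
      _ = _ := by group
  have hfix : (b : MulAut P) c = c := by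
    have h := hQfix (Subgroup.inclusion hPW c) hcQ
    exact Subtype.ext ((hex c).symm.trans (congrArg Subtype.val h))
  have hn : ∀ i : ℕ, ((b : MulAut P) ^ i) x = x * c ^ i := by
    intro i
    induction i with
    | zero => simp
    | succ i ih =>
      rw [pow_succ', MulAut.mul_apply, ih, map_mul, map_pow, hfix, pow_succ', ← mul_assoc,
        ← mul_assoc, mul_inv_cancel, one_mul]
  obtain ⟨j, hj⟩ := (hS.to_le hPS) c
  have h1' : c ^ orderOf (b : MulAut P) = 1 := by
    have := hn (orderOf (b : MulAut P))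
    rw [pow_orderOf_eq_one, MulAut.one_apply] at this
    exact left_eq_mul.1 this
  exact (inv_mul_eq_one.1 (coprime_trivial hbo h1' hj)).symm

end Local

end Cfsg.Agent.FusionAlperin
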