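import Cfsg.Agent.FusionAlperin.CharPType
import Cfsg.Agent.PGroup.Basic

/-!
Constrained normalizer systems move along maps between normalizers; the dichotomy.
-/

set_option autoImplicit false

open Cfsg Cfsg.FusionSystem
open Cfsg.Agent.FusionSys

namespace Cfsg.Agent.FusionAlperin

universe u

variable {Ω : Type u} [Group Ω] {S : Subgroup Ω} {p : ℕ} [Finite S] [Fact p.Prime]
  {F : FusionSystem S}

/-- Constrainedness of normalizer systems is invariant under isomorphisms of the normalizers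
that carry one subgroup to the other. -/
theorem constrained_normalizer_of_iso (hS : IsPGroup p S) (hF : F.IsSaturated p) {U U' : Subgroup Ω}
    (hU : F.IsFullyNormalized U) (hU'S : U' ≤ S) {θ : normalizerIn S U →* Ω}
    (hθ : θ ∈ F.Hom (normalizerIn S U)) (hr : θ.range = normalizerIn S U')
    (hθU : (U.subgroupOf (normalizerIn S U)).map θ = U')
    {E' : FusionSystem (normalizerIn S U')} (hE' : F.IsNormalizerSystem U' E')
    (hc : E'.IsConstrained p) {E : FusionSystem (normalizerIn S U)}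
    (hE : F.IsNormalizerSystem U E) : E.IsConstrained p := by
  obtain ⟨-, Q', hQn, hQc⟩ := hc
  have hUS : U ≤ S := hU.1
  have hEs := normalizerSystem_saturated hS hF hU hE
  have hUn := normalizerSystem_isNormal hUS hE
  let M := normalizerIn S U
  let N := normalizerIn S U'
  have hMS : M ≤ S := normalizerIn_le U
  obtain ⟨τ₀, hτ₀, hτe⟩ := F.inv_mem hθ
  set τ := restr hr.ge τ₀
  have hτ : τ ∈ F.Hom N := restr_mem F _ hτ₀
  have hθN : ∀ x, θ x ∈ N := fun x => hr.le ⟨x, rfl⟩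
  have hτθ : ∀ x : M, τ ⟨θ x, hθN x⟩ = x := hτe
  have hθs : ∀ y : N, ∃ x : M, θ x = y := fun y => hr.ge y.2
  have hτM : ∀ y : N, τ y ∈ M := fun y => by
    obtain ⟨x, hx⟩ := hθs y
    rw [show y = ⟨θ x, hθN x⟩ from Subtype.ext hx.symm, hτθ]
    exact x.2
  have hθτ : ∀ y : N, θ ⟨τ y, hτM y⟩ = y := fun y => by
    obtain ⟨x, hx⟩ := hθs y
    refine Eq.trans (congrArg θ (Subtype.ext ?_)) hx
    rw [show y = ⟨θ x, hθN x⟩ from Subtype.ext hx.symm]
    exact hτθ x
  have hQN : Q' ≤ N := hQn.1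
  set Q := (Q'.subgroupOf N).map τ
  have hQM : Q ≤ M := by
    rintro _ ⟨y, -, rfl⟩
    exact hτM y
  have : Finite Q := finite_of_le ‹_› (hQM.trans hMS)
  have hθQ : ∀ x : M, (x : Ω) ∈ Q → θ x ∈ Q' := by
    intro x hx
    obtain ⟨y, hy, hyx⟩ := hx
    rw [show x = ⟨τ y, hτM y⟩ from Subtype.ext hyx.symm, hθτ]
    exact hy
  have hQnE : E.IsNormal Q := by
    refine ⟨hQM, fun P φ hφ => ?_⟩
    obtain ⟨ψ, hψ, hψP, hψU⟩ := hUn.2 P φ hφ
    have hψF := FusionAux.normalizerSystem_hom hE hψ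
    let W := P ⊔ U
    have hWM : W ≤ M := le_S E hψ
    set W' := (W.subgroupOf M).map θ
    have hW'N : W' ≤ N := by
      rintro _ ⟨x, -, rfl⟩
      exact hθN x
    have hτW : ∀ y, restr hW'N τ y ∈ W := by
      rintro ⟨_, x, hx, rfl⟩
      exact (hτθ x).symm ▸ hx
    have hψM : ∀ x, ψ x ∈ M := map_mem_S E hψ
    set χ := (θ.comp (ψ.codRestrict M hψM)).comp ((restr hW'N τ).codRestrict W hτW)
    have hχ : χ ∈ F.Hom W' :=
      F.comp_mem (restr_mem F hW'N hτ) (F.comp_mem hψF hθ hψM) hτW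
    have hθW : ∀ (x : W), θ (Subgroup.inclusion hWM x) ∈ W' := fun x =>
      ⟨Subgroup.inclusion hWM x, x.2, rfl⟩
    have hχθ : ∀ x : W, χ ⟨θ (Subgroup.inclusion hWM x), hθW x⟩ = θ ⟨ψ x, hψM x⟩ := fun x =>
      congrArg θ (Subtype.ext (congrArg ψ (Subtype.ext (hτθ _))))
    have hU'W : U' ≤ W' := by
      rw [← hθU]
      exact Subgroup.map_mono fun x hx => Subgroup.mem_sup_right hx
    have hχU : ∀ y : W', (y : Ω) ∈ U' → χ y ∈ U' := by
      intro y hy
      obtain ⟨x, hx, hxy⟩ := hθU.ge hy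
      let x' : W := ⟨x, Subgroup.mem_sup_right hx⟩
      rw [show y = ⟨θ (Subgroup.inclusion hWM x'), hθW x'⟩ from Subtype.ext hxy.symm, hχθ,
        ← hθU]
      exact ⟨⟨ψ x', hψM x'⟩, FusionAux.apply_mem_of_map_eq hψU (show (x' : Ω) ∈ U from hx), rfl⟩
    have hχE : χ ∈ E'.Hom W' := mem_normalizerSystem hU'S hE' hU'W hW'N hχ (fun y => hθN _) hχU
    obtain ⟨ξ, hξ, hξe, hξQ⟩ := hQn.2 W' χ hχE
    have hξF := FusionAux.normalizerSystem_hom hE' hξ
    have hWQ : W ⊔ Q ≤ M := sup_le hWM hQM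
    have hθWQ : ∀ z, restr hWQ θ z ∈ W' ⊔ Q' := forall_mem_sup (restr hWQ θ)
      (fun x => Subgroup.mem_sup_left (hθW x))
      fun x => Subgroup.mem_sup_right (hθQ ⟨x, hQM x.2⟩ x.2)
    have hξN : ∀ z, ξ z ∈ N := map_mem_S E' hξ
    set ω := (τ.comp (ξ.codRestrict N hξN)).comp ((restr hWQ θ).codRestrict _ hθWQ)
    have hω : ω ∈ F.Hom (W ⊔ Q) :=
      F.comp_mem (restr_mem F hWQ hθ) (F.comp_mem hξF hτ hξN) hθWQ
    have hωW : ∀ x : W, ω (Subgroup.inclusion le_sup_left x) = ψ x := fun x => by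
      refine Eq.trans (congrArg τ (Subtype.ext ?_)) (hτθ ⟨ψ x, hψM x⟩)
      exact (hξe ⟨θ (Subgroup.inclusion hWM x), hθW x⟩).trans (hχθ x)
    have hωQ : ∀ x : ↥(W ⊔ Q), (x : Ω) ∈ Q → ω x ∈ Q := fun x hx =>
      ⟨_, FusionAux.apply_mem_of_map_eq hξQ
        (show θ (Subgroup.inclusion hWQ x) ∈ Q' from hθQ _ hx), rfl⟩
    have hωE : ω ∈ E.Hom (W ⊔ Q) := mem_normalizerSystem hUS hE
      (le_sup_right.trans le_sup_left) hWQ hω (fun y => hτM _) fun x hx => by
        let x' : W := ⟨x, Subgroup.mem_sup_right hx⟩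
        rw [show x = Subgroup.inclusion le_sup_left x' from Subtype.ext rfl, hωW]
        exact FusionAux.apply_mem_of_map_eq hψU (show (x' : Ω) ∈ U from hx)
    have hPQ : P ⊔ Q ≤ W ⊔ Q := sup_le_sup_right le_sup_left Q
    refine ⟨restr hPQ ω, restr_mem E hPQ hωE,
      fun x => (hωW (Subgroup.inclusion le_sup_left x)).trans (hψP x), ?_⟩
    exact map_subgroupOf_eq_of_mem le_sup_right (F.injective_of_mem (restr_mem F hPQ hω))
      fun x hx => hωQ _ hx
  refine ⟨hEs, Q, hQnE, hQM, ?_⟩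
  rintro _ ⟨φ, hφ, rfl⟩
  rw [range_eq_of_image_le (Q := Q) (E.injective_of_mem hφ) (by
    rintro _ ⟨x, rfl⟩
    exact sc_map_mem (isNormal_stronglyClosed hQnE) hφ x.2) le_rfl]
  intro x hx
  have hxQ : θ ⟨x, hx.1⟩ ∈ Q' := by
    refine hQc.2 Q' (isConj_refl _ hQN) ⟨hθN _, Subgroup.mem_centralizer_iff.2 fun q hq => ?_⟩
    have hq' : τ ⟨q, hQN hq⟩ ∈ Q := ⟨_, hq, rfl⟩
    rw [show q = θ ⟨τ ⟨q, hQN hq⟩, hτM _⟩ from (hθτ ⟨q, hQN hq⟩).symm, ← map_mul, ← map_mul]
    exact congrArg θ (Subtype.ext (Subgroup.mem_centralizer_iff.1 hx.2 _ hq'))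
  exact ⟨⟨θ ⟨x, hx.1⟩, hθN _⟩, hxQ, hτθ _⟩

/-- A nontrivial fully normalized subgroup contains an element of order `p` centralizing its
normalizer. -/
theorem exists_central_zpowers (hS : IsPGroup p S) {U : Subgroup Ω} (hUS : U ≤ S) (hne : U ≠ ⊥) :
    ∃ X : Subgroup Ω, Nat.card X = p ∧ X ≤ U ∧ normalizerIn S U ≤ centralizerIn S X := by
  set M := normalizerIn S U
  have hUM : U ≤ M := le_normalizerIn hUS
  have hMS : M ≤ S := normalizerIn_le U
  have : Finite M := finite_of_le ‹_› hMS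
  have : (U.subgroupOf M).Normal := Subgroup.normal_subgroupOf_iff hUM |>.2
    fun h m hh hm => (Subgroup.mem_normalizer_iff.1 hm.2 h).1 hh
  have hne' : U.subgroupOf M ≠ ⊥ := fun h => hne (by
    rw [← Subgroup.map_subgroupOf_eq_of_le hUM, h, Subgroup.map_bot])
  have h := PGroup.inf_center_ne_bot (hS.to_le hMS) (U.subgroupOf M) hne'
  have : Nontrivial ↥(U.subgroupOf M ⊓ Subgroup.center M) := (Subgroup.nontrivial_iff_ne_bot _).2 h
  obtain ⟨k, hk, hcard⟩ := (IsPGroup.nontrivial_iff_card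
    ((hS.to_le hMS).to_subgroup (U.subgroupOf M ⊓ Subgroup.center M))).1 inferInstance
  obtain ⟨w, hw⟩ := exists_prime_orderOf_dvd_card' (G := ↥(U.subgroupOf M ⊓ Subgroup.center M)) p
    (hcard ▸ dvd_pow_self p hk.ne')
  refine ⟨Subgroup.zpowers ((w : M) : Ω), ?_, Subgroup.zpowers_le.2 w.2.1, fun m hm => ⟨hMS hm, ?_⟩⟩
  · rw [Nat.card_zpowers, Subgroup.orderOf_coe, Subgroup.orderOf_coe, hw]
  · refine Subgroup.mem_centralizer_iff.2 fun q hq => ?_
    have hcomm : Commute ((w : M) : Ω) m :=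
      (congrArg Subtype.val (Subgroup.mem_center_iff.1 w.2.2 ⟨m, hm⟩)).symm
    obtain ⟨i, rfl⟩ := Subgroup.mem_zpowers_iff.1 hq
    exact (hcomm.zpow_left i).eq

/-- The dichotomy. -/
theorem charP_or_component (hS : IsPGroup p S) (hF : F.IsSaturated p) :
    F.IsOfCharacteristicPType p ∨ F.IsOfComponentType p := by
  rw [or_iff_not_imp_right]
  intro hnc U hne hU E hE
  have hUS : U ≤ S := hU.1
  obtain ⟨X, hXp, hXU, hNC⟩ := exists_central_zpowers hS hUS hne
  set M := normalizerIn S U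
  have hXS : X ≤ S := hXU.trans hUS
  obtain ⟨X', hXX', hX'⟩ := exists_fullyNormalized F hXS
  obtain ⟨φ, hφ, -, hφX⟩ := exists_normalizer_map_fullyNormalized hS hF hX' hXX'
  have hMX : M ≤ normalizerIn S X := fun m hm =>
    ⟨normalizerIn_le U hm, Subgroup.centralizer_le_normalizer _ (hNC hm).2⟩
  set θ := restr hMX φ
  have hθ : θ ∈ F.Hom M := restr_mem F hMX hφ
  have hUM : U ≤ M := le_normalizerIn hUS
  set U' := (U.subgroupOf M).map θ with hU'
  have hU'S : U' ≤ S := (Subgroup.map_le_range _ _).trans (range_le_S F hθ)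
  have hUU' : F.IsConj U U' := ⟨restr hUM θ, restr_mem F hUM hθ, range_restr hUM θ⟩
  have hθN : θ.range ≤ normalizerIn S U' := by
    rintro _ ⟨m, rfl⟩
    refine ⟨map_mem_S F hθ m, ?_⟩
    have hm : m ∈ Subgroup.normalizer ((U.subgroupOf M : Subgroup M) : Set M) :=
      Subgroup.mem_normalizer_iff.2 fun x => Subgroup.mem_normalizer_iff.1 m.2.2 x
    exact Subgroup.le_normalizer_map θ ⟨m, hm, rfl⟩
  have : Finite (normalizerIn S U') := finite_of_le ‹_› (normalizerIn_le U')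
  have hMcard : Nat.card θ.range = Nat.card M :=
    (Nat.card_congr (MonoidHom.ofInjective (F.injective_of_mem hθ)).toEquiv).symm
  have hr : θ.range = normalizerIn S U' :=
    eq_of_le_of_card_le hθN ((hU.2 U' hUU').trans hMcard.ge)
  have hU'fn : F.IsFullyNormalized U' := by
    refine ⟨hU'S, fun R hR => (hU.2 R (isConj_trans hUU' hR)).trans ?_⟩
    rw [← hr]
    exact hMcard.ge
  have hXM : X ≤ M := hXU.trans hUM
  have hθX : ∀ y ∈ X', ∃ x : M, (x : Ω) ∈ X ∧ θ x = y := fun y hy => by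
    obtain ⟨x, hx, hxy⟩ := hφX.ge hy
    exact ⟨⟨x, hXM hx⟩, hx, hxy⟩
  have hX'U' : X' ≤ U' := fun y hy => by
    obtain ⟨x, hx, rfl⟩ := hθX y hy
    exact ⟨x, hXU hx, rfl⟩
  have hN'C : normalizerIn S U' ≤ centralizerIn S X' := fun y hy => by
    refine ⟨hy.1, Subgroup.mem_centralizer_iff.2 fun q hq => ?_⟩
    obtain ⟨x, hx, rfl⟩ := hθX q hq
    obtain ⟨m, rfl⟩ := hr.ge hy
    rw [← map_mul, ← map_mul]
    exact congrArg θ (Subtype.ext (Subgroup.mem_centralizer_iff.1 (hNC m.2).2 _ hx))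
  set C := centSys F X' hX'.1
  have hCs := centralizerSystem_saturated hS hF (saturated_fullyNormalized hS hF hX').1
    (centSys_spec F X' hX'.1)
  have : Finite (centralizerIn S X') := finite_of_le ‹_› (centralizerIn_le X')
  have hCc : C.IsConstrained p := by
    rcases constrained_or_component (hS.to_le (centralizerIn_le X')) hCs with h | h
    · exact h
    · exact absurd ⟨X', (isConj_card_eq hXX').symm.trans hXp, hX', C, centSys_spec F X' hX'.1, h⟩ hnc
  exact constrained_normalizer_of_iso hS hF hU hU'S hθ hr rfl (FusionAux.normSys_spec F U' hU'S)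
    (constrained_normalizer_of_centralizer hS hF hU'fn hX'U' hN'C (centSys_spec F X' hX'.1) hCc
      (FusionAux.normSys_spec F U' hU'S)) hE

end Cfsg.Agent.FusionAlperin
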